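import Mathlib
import Cfsg.Agent.S0012
import Cfsg.Agent.S0029
import Cfsg.Agent.Lib.Helper51.TIH.Defs

/-!
# TIH (S4118), package [AUT-P]

Coprime automorphisms of a cyclic or generalized quaternion `p`-group: the derived group acts
trivially.
-/

set_option autoImplicit false

namespace Cfsg.Agent.Lib.Helper86.TIH

open Cfsg.Agent.Lib.Helper51.TIH

universe u

/-- cyclic case: the automorphisms induced on a cyclic group are power maps, which commute. -/
theorem autP_cyclic {G : Type u} [Group G] (T A : Subgroup G)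
    (hAT : A ≤ Subgroup.normalizer (T : Set G)) (hc : IsCyclic T) :
    ⁅A, A⁆ ≤ Subgroup.centralizer (T : Set G) := by
  obtain ⟨g₀, hg₀⟩ := (Subgroup.isCyclic_iff_exists_zpowers_eq_top T).mp hc
  have hpow : ∀ a ∈ A, ∃ m : ℤ, ∀ t ∈ T, a * t * a⁻¹ = t ^ m := by
    intro a ha
    have h0 : g₀ ∈ T := hg₀ ▸ Subgroup.mem_zpowers g₀
    have h1 : a * g₀ * a⁻¹ ∈ T := (Subgroup.mem_normalizer_iff.mp (hAT ha) g₀).1 h0
    rw [← hg₀] at h1
    obtain ⟨m, hm⟩ := Subgroup.mem_zpowers_iff.mp h1
    refine ⟨m, fun t ht => ?_⟩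
    rw [← hg₀] at ht
    obtain ⟨j, rfl⟩ := Subgroup.mem_zpowers_iff.mp ht
    rw [← conj_zpow, ← hm, ← zpow_mul, ← zpow_mul, mul_comm]
  rw [Subgroup.commutator_le]
  intro a ha b hb
  obtain ⟨m, hm⟩ := hpow a ha
  obtain ⟨k, hk⟩ := hpow b hb
  rw [Subgroup.mem_centralizer_iff]
  intro t ht
  have hs : b⁻¹ * t * b ∈ T := by
    have := (Subgroup.mem_normalizer_iff.mp (inv_mem (hAT hb)) t).1 ht
    simpa using this
  have hs2 : a⁻¹ * (b⁻¹ * t * b) * a ∈ T := by
    have := (Subgroup.mem_normalizer_iff.mp (inv_mem (hAT ha)) _).1 hs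
    simpa using this
  set s := a⁻¹ * (b⁻¹ * t * b) * a with hs_def
  have e1 : a * (b * s * b⁻¹) * a⁻¹ = b * (a * s * a⁻¹) * b⁻¹ := by
    rw [hk s hs2, hm s hs2, hm _ (zpow_mem hs2 k), hk _ (zpow_mem hs2 m), ← zpow_mul,
      ← zpow_mul, mul_comm]
  have e2 : b * (a * s * a⁻¹) * b⁻¹ = t := by simp [hs_def, mul_assoc]
  have e3 : a * (b * s * b⁻¹) * a⁻¹ = t := e1.trans e2
  rw [commutatorElement_def]
  calc t * (a * b * a⁻¹ * b⁻¹) = (a * (b * s * b⁻¹) * a⁻¹) * (a * b * a⁻¹ * b⁻¹) := by rw [e3]
    _ = a * b * a⁻¹ * b⁻¹ * t := by simp [hs_def, mul_assoc]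

/-- quaternion case: the Frattini quotient has at most `4` elements, so a group of odd order
induces an abelian group of permutations of it; the derived group acts trivially on the
Frattini quotient, hence trivially (S0029). -/
theorem autP_quat {G : Type u} [Group G] [Finite G] (T A : Subgroup G)
    (hAT : A ≤ Subgroup.normalizer (T : Set G)) (hA : ¬ 2 ∣ Nat.card A) (n : ℕ)
    (e : T ≃* QuaternionGroup (2 ^ n)) :
    ⁅A, A⁆ ≤ Subgroup.centralizer (T : Set G) := by
  classical
  haveI : Fact (Nat.Prime 2) := ⟨Nat.prime_two⟩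
  have hcardT : Nat.card T = 2 ^ (n + 2) := by
    rw [Nat.card_congr e.toEquiv, Nat.card_eq_fintype_card, QuaternionGroup.card]; ring
  have hT2 : IsPGroup 2 T := IsPGroup.iff_card.mpr ⟨n + 2, hcardT⟩
  obtain ⟨-, hsq⟩ := Cfsg.Agent.S0012.result 2 hT2
  -- the Frattini quotient has at most four elements
  have hW4 : Nat.card (T ⧸ frattini T) ≤ 4 := by
    set u : T := e.symm (QuaternionGroup.a 1) with hu
    set v : T := e.symm (QuaternionGroup.xa 0) with hv
    have key : ∀ i : ZMod (2 * 2 ^ n),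
        ((e.symm (QuaternionGroup.a i) : T) : T ⧸ frattini T) = 1 ∨
        ((e.symm (QuaternionGroup.a i) : T) : T ⧸ frattini T) = (u : T ⧸ frattini T) := by
      intro i
      obtain ⟨z, rfl⟩ := ZMod.intCast_surjective i
      set k : ZMod (2 * 2 ^ n) := ((z / 2 : ℤ) : ZMod (2 * 2 ^ n)) with hk
      have hsqk : ((e.symm (QuaternionGroup.a (k + k)) : T) : T ⧸ frattini T) = 1 := by
        rw [QuotientGroup.eq_one_iff]
        have : e.symm (QuaternionGroup.a (k + k)) = (e.symm (QuaternionGroup.a k)) ^ 2 := by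
          rw [← map_pow, pow_two, QuaternionGroup.a_mul_a]
        rw [this]; exact hsq _
      rcases Int.emod_two_eq_zero_or_one z with h0 | h1
      · left
        have hz : ((z : ℤ) : ZMod (2 * 2 ^ n)) = k + k := by
          rw [hk, ← Int.cast_add]; congr 1; omega
        rw [hz]; exact hsqk
      · right
        have hz : ((z : ℤ) : ZMod (2 * 2 ^ n)) = 1 + (k + k) := by
          rw [hk, ← Int.cast_add, ← Int.cast_one, ← Int.cast_add]; congr 1; omega
        rw [hz, ← QuaternionGroup.a_mul_a, map_mul, QuotientGroup.mk_mul, hsqk, mul_one]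
    have hmem : ∀ w : T ⧸ frattini T, w ∈ ({1, (u : T ⧸ frattini T), (v : T ⧸ frattini T),
        (v : T ⧸ frattini T) * (u : T ⧸ frattini T)} : Finset (T ⧸ frattini T)) := by
      intro w
      induction w using QuotientGroup.induction_on with
      | H t =>
        obtain ⟨q, rfl⟩ := e.symm.surjective t
        cases q with
        | a i =>
          rcases key i with h | h
          · rw [h]; simp
          · rw [h]; simp
        | xa i =>
          have hx : QuaternionGroup.xa i = QuaternionGroup.xa 0 * QuaternionGroup.a i := by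
            rw [QuaternionGroup.xa_mul_a, zero_add]
          rw [hx, map_mul, QuotientGroup.mk_mul, ← hv]
          rcases key i with h | h
          · rw [h]; simp
          · rw [h]; simp
    haveI : Fintype (T ⧸ frattini T) := Fintype.ofFinite _
    rw [Nat.card_eq_fintype_card, ← Finset.card_univ]
    refine le_trans (Finset.card_le_card (fun w _ => hmem w)) Finset.card_le_four
  -- the action on the Frattini quotient
  have hfr : ∀ a : A, (frattini T).map
      ((Cfsg.Agent.S0029.conjEquiv T a (hAT a.2) : T ≃* T) : T →* T) = frattini T :=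
    fun a => Subgroup.characteristic_iff_map_eq.mp frattini_characteristic _
  let ρ : A →* MulAut (T ⧸ frattini T) :=
    { toFun := fun a => QuotientGroup.congr (frattini T) (frattini T)
        (Cfsg.Agent.S0029.conjEquiv T a (hAT a.2)) (hfr a)
      map_one' := by
        ext w
        induction w using QuotientGroup.induction_on with
        | H t =>
          rw [QuotientGroup.congr_mk]
          simp [Cfsg.Agent.S0029.conjEquiv]
      map_mul' := by
        intro a b
        ext w
        induction w using QuotientGroup.induction_on with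
        | H t =>
          rw [MulAut.mul_apply, QuotientGroup.congr_mk, QuotientGroup.congr_mk,
            QuotientGroup.congr_mk]
          congr 1
          ext
          simp [Cfsg.Agent.S0029.conjEquiv, mul_assoc] }
  have hρ : ∀ (a : A) (t : T), ρ a (t : T ⧸ frattini T) =
      ((Cfsg.Agent.S0029.conjEquiv T a (hAT a.2) t : T) : T ⧸ frattini T) := by
    intro a t
    rfl
  let π : A →* Equiv.Perm (T ⧸ frattini T) := (MulAut.toPerm (T ⧸ frattini T)).comp ρ
  have hπ : ∀ (a : A) (w : T ⧸ frattini T), π a w = ρ a w := fun a w => rfl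
  -- the image is commutative
  have hr3 : Nat.card π.range ∣ 3 := by
    have h1 : Nat.card π.range ∣ Nat.card A := Subgroup.card_range_dvd π
    have h2 : Nat.card π.range ∣ Nat.card (Equiv.Perm (T ⧸ frattini T)) :=
      Subgroup.card_subgroup_dvd_card _
    have h3 : Nat.card (Equiv.Perm (T ⧸ frattini T)) ∣ 8 * 3 := by
      rw [Nat.card_perm]
      have : (Nat.card (T ⧸ frattini T)).factorial ∣ (4).factorial :=
        Nat.factorial_dvd_factorial hW4
      exact this
    have hodd : (Nat.card π.range).Coprime 2 := by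
      refine Nat.Coprime.coprime_dvd_left h1 ?_
      exact Nat.coprime_comm.mp ((Nat.Prime.coprime_iff_not_dvd Nat.prime_two).mpr hA)
    have h4 : (Nat.card π.range).Coprime 8 := by
      have := Nat.Coprime.pow_right 3 hodd
      simpa using this
    exact h4.dvd_of_dvd_mul_left (h2.trans h3)
  haveI : Fact (Nat.Prime 3) := ⟨Nat.prime_three⟩
  haveI hcyc : IsCyclic π.range := isCyclic_of_card_dvd_prime hr3
  have hcommr : ∀ x y : π.range, x * y = y * x := by
    obtain ⟨g, hg⟩ := IsCyclic.exists_generator (α := π.range)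
    intro x y
    obtain ⟨i, rfl⟩ := Subgroup.mem_zpowers_iff.mp (hg x)
    obtain ⟨j, rfl⟩ := Subgroup.mem_zpowers_iff.mp (hg y)
    exact zpow_mul_comm g i j
  have hcomm : ∀ a b : A, π a * π b = π b * π a := by
    intro a b
    have := hcommr ⟨π a, MonoidHom.mem_range.mpr ⟨a, rfl⟩⟩ ⟨π b, MonoidHom.mem_range.mpr ⟨b, rfl⟩⟩
    exact congrArg Subtype.val this
  -- the kernel, as a subgroup of `G`
  set B : Subgroup G := (π.ker).map A.subtype with hB
  have hBA : B ≤ A := Subgroup.map_subtype_le _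
  have hBcent : B ≤ Subgroup.centralizer (T : Set G) := by
    refine Cfsg.Agent.S0029.result B T (hBA.trans hAT) ?_ ?_
    · have h1 : Nat.card B ∣ Nat.card A := Subgroup.card_dvd_of_le hBA
      have h2 : Nat.card (frattini T) ∣ 2 ^ (n + 2) := hcardT ▸ Subgroup.card_subgroup_dvd_card _
      obtain ⟨j, -, hj⟩ := (Nat.dvd_prime_pow Nat.prime_two).mp h2
      rw [hj]
      refine Nat.Coprime.pow_right j ?_
      refine Nat.Coprime.coprime_dvd_left h1 ?_
      exact Nat.coprime_comm.mp ((Nat.Prime.coprime_iff_not_dvd Nat.prime_two).mpr hA)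
    · rintro _ ⟨c, hc, rfl⟩ t ht
      have hc1 : π c = 1 := MonoidHom.mem_ker.mp hc
      have h1 : ρ c ((⟨t, ht⟩ : T) : T ⧸ frattini T) = ((⟨t, ht⟩ : T) : T ⧸ frattini T) := by
        rw [← hπ, hc1]; rfl
      rw [hρ] at h1
      have h2 : (Cfsg.Agent.S0029.conjEquiv T c (hAT c.2) ⟨t, ht⟩ * (⟨t, ht⟩ : T)⁻¹ : T) ∈
          frattini T := by
        rw [← QuotientGroup.eq_one_iff, QuotientGroup.mk_mul, h1, QuotientGroup.mk_inv,
          mul_inv_cancel]
      refine ⟨_, h2, ?_⟩
      simp [Cfsg.Agent.S0029.conjEquiv]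
  refine le_trans ?_ hBcent
  rw [Subgroup.commutator_le]
  intro a ha b hb
  have hker : (⟨a, ha⟩ : A) * ⟨b, hb⟩ * (⟨a, ha⟩ : A)⁻¹ * (⟨b, hb⟩ : A)⁻¹ ∈ π.ker := by
    have h := hcomm ⟨a, ha⟩ ⟨b, hb⟩
    rw [MonoidHom.mem_ker]
    simp only [map_mul, map_inv]
    rw [h]
    group
  refine ⟨_, hker, ?_⟩
  simp [commutatorElement_def]

/-- **[AUT-P]** -/
theorem pkgAutP : PkgAutP.{u} := by
  intro G _ _ T A p _ hAT hT hpA hcq
  rcases hcq with hc | ⟨n, ⟨e⟩⟩
  · exact autP_cyclic T A hAT hc
  · have hp2 : p = 2 := by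
      obtain ⟨k, hk⟩ := IsPGroup.iff_card.mp hT
      have hcard : Nat.card T = 2 ^ (n + 2) := by
        rw [Nat.card_congr e.toEquiv, Nat.card_eq_fintype_card, QuaternionGroup.card]; ring
      rw [hcard] at hk
      have hk0 : k ≠ 0 := by
        rintro rfl
        have : 1 < 2 ^ (n + 2) := Nat.one_lt_two_pow (by omega)
        rw [pow_zero] at hk
        omega
      have hdvd : p ∣ 2 ^ (n + 2) := hk ▸ dvd_pow_self p hk0
      exact (Nat.prime_dvd_prime_iff_eq Fact.out Nat.prime_two).mp
        (Nat.Prime.dvd_of_dvd_pow Fact.out hdvd)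
    subst hp2
    exact autP_quat T A hAT hpA n e

end Cfsg.Agent.Lib.Helper86.TIH
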